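import Mathlib
import Cfsg.Prelude.Def_Transfer
import Cfsg.Agent.H386.PrimTools
import Cfsg.Agent.H398.Dih.Simple

/-!
# Primitive groups with a dihedral point stabilizer: set-up, the affine case
-/

set_option autoImplicit false

namespace Cfsg.Agent.H398.Dih

open Subgroup MulAction

universe u v

variable {G : Type u} [Group G] {Ω : Type v} [MulAction G Ω]

theorem exists_max [FaithfulSMul G Ω] (hprim : IsPreprimitive G Ω) (a : Ω) {m : ℕ}
    (hm : 3 ≤ m) (e : stabilizer G a ≃* DihedralGroup m) :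
    ∃ C, Max (stabilizer G a) C ∧ Nat.card C = m := by
  obtain ⟨C, hC, hCm⟩ := exists_isDih hm e
  have hnt : Nontrivial Ω := by
    by_contra hcon
    rw [not_nontrivial_iff_subsingleton] at hcon
    obtain ⟨s, hs, hsC⟩ := hC.ex
    apply hsC
    have : s = 1 := FaithfulSMul.eq_of_smul_eq_smul (α := Ω) fun x => Subsingleton.elim _ _
    rw [this]; exact one_mem C
  refine ⟨C, ⟨hC, IsPreprimitive.isCoatom_stabilizer_of_isPreprimitive G a, fun N hN hle => ?_⟩, hCm⟩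
  by_contra hN0
  obtain ⟨b, hb⟩ := _root_.exists_ne a
  obtain ⟨n, hn, hnb⟩ := Cfsg.Agent.H386.PrimTools.exists_smul_eq_of_normal N hN0 a b
  exact hb (by rw [← hnb]; exact mem_stabilizer_iff.1 (hle hn))

theorem affine [Finite G] [FaithfulSMul G Ω] (hprim : IsPreprimitive G Ω) (N : Subgroup G)
    [hn : N.Normal] (hN : N ≠ ⊥) (hmin : ∀ M : Subgroup G, M.Normal → M ≤ N → M = ⊥ ∨ M = N)
    (hab : ∀ x ∈ N, ∀ y ∈ N, x * y = y * x) :
    ∃ r : ℕ, r.Prime ∧ Cfsg.IsElementaryAbelian r N ∧ IsPretransitive N Ω ∧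
      ∀ a : Ω, stabilizer N a = ⊥ := by
  have h1 : Nat.card N ≠ 1 := by
    intro h1
    exact hN (Subgroup.card_eq_one.1 h1)
  obtain ⟨r, hr, hrN⟩ := Nat.exists_prime_and_dvd h1
  have hrf := Fact.mk hr
  obtain ⟨⟨x, hxN⟩, hx⟩ := exists_prime_orderOf_dvd_card' r hrN
  rw [Subgroup.orderOf_mk] at hx
  let M : Subgroup G :=
    { carrier := {y | y ∈ N ∧ y ^ r = 1}
      one_mem' := ⟨one_mem _, one_pow _⟩
      mul_mem' := by
        rintro y z ⟨hy, hy1⟩ ⟨hz, hz1⟩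
        refine ⟨mul_mem hy hz, ?_⟩
        rw [(show Commute y z from hab y hy z hz).mul_pow, hy1, hz1, one_mul]
      inv_mem' := by
        rintro y ⟨hy, hy1⟩
        exact ⟨inv_mem hy, by rw [inv_pow, hy1, inv_one]⟩ }
  have hM : M.Normal := by
    constructor
    rintro y ⟨hy, hy1⟩ g
    exact ⟨hn.conj_mem y hy g, by rw [conj_pow, hy1, mul_one, mul_inv_cancel]⟩
  have hMN : M = N := by
    rcases hmin M hM (fun y hy => hy.1) with h2 | h2
    · exfalso
      have h3 : x ∈ M := ⟨hxN, by rw [← hx, pow_orderOf_eq_one]⟩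
      rw [h2, mem_bot] at h3
      rw [h3, orderOf_one] at hx
      exact hr.one_lt.ne hx
    · exact h2
  have htr : ∀ a ω : Ω, ∃ n ∈ N, n • a = ω := fun a ω =>
    Cfsg.Agent.H386.PrimTools.exists_smul_eq_of_normal N hN a ω
  refine ⟨r, hr, ⟨⟨⟨fun y z => Subtype.ext (hab y y.2 z z.2)⟩⟩, fun y hy => ?_⟩, ⟨fun a ω => ?_⟩, fun a => ?_⟩
  · rw [← hMN] at hy
    exact hy.2
  · obtain ⟨n, hn, hna⟩ := htr a ω
    exact ⟨⟨n, hn⟩, hna⟩
  · rw [eq_bot_iff]
    rintro ⟨n, hn⟩ hna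
    rw [mem_bot]
    apply Subtype.ext
    exact Cfsg.Agent.H386.PrimTools.eq_one_of_commute N (htr a) (fun k hk => hab n hn k hk)
      (mem_stabilizer_iff.1 hna)

/-- a minimal normal subgroup -/
theorem exists_minNormal [Finite G] [Nontrivial G] : ∃ N : Subgroup G, N.Normal ∧ N ≠ ⊥ ∧
    ∀ M : Subgroup G, M.Normal → M ≤ N → M = ⊥ ∨ M = N := by
  have h1 : {N : Subgroup G | N.Normal ∧ N ≠ ⊥}.Nonempty := ⟨⊤, inferInstance, top_ne_bot⟩
  obtain ⟨N, hN⟩ := Set.Finite.exists_minimal (Set.toFinite _) h1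
  refine ⟨N, hN.prop.1, hN.prop.2, fun M hM hMN => ?_⟩
  by_cases hM0 : M = ⊥
  · exact Or.inl hM0
  · exact Or.inr (le_antisymm hMN (hN.le_of_le (y := M) ⟨hM, hM0⟩ hMN))

end Cfsg.Agent.H398.Dih
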