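import Mathlib

/-!
# Involutions of the alternating group of degree 7
-/

set_option autoImplicit false

namespace Cfsg.Agent.H398.Dih

open Equiv Equiv.Perm

theorem cycleType_of_invol {w : Perm (Fin 7)} (hw : w * w = 1) (hw1 : w ≠ 1) (hs : sign w = 1) :
    w.cycleType = Multiset.replicate 2 2 := by
  have ho : orderOf w = 2 := orderOf_eq_prime (by rw [pow_two, hw]) hw1
  obtain ⟨n, hn⟩ := cycleType_prime_order (σ := w) (by rw [ho]; exact Nat.prime_two)
  rw [ho] at hn
  have h1 := sign_of_cycleType w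
  rw [hn, hs] at h1
  have h2 : w.support.card ≤ 7 := by
    have := Finset.card_le_univ w.support
    simpa using this
  have h3 := sum_cycleType w
  rw [hn, Multiset.sum_replicate, smul_eq_mul] at h3
  have h4 : n ≤ 2 := by omega
  rw [hn]
  interval_cases n
  · exfalso
    revert h1; decide
  · rfl
  · exfalso
    revert h1; decide

def w0 : Perm (Fin 7) := swap 0 1 * swap 2 3
def t0 : Perm (Fin 7) := swap 0 2 * swap 1 3
def y0 : Perm (Fin 7) := swap 4 5 * swap 5 6

theorem alt_seven (w : alternatingGroup (Fin 7)) (hw : w * w = 1) (hw1 : w ≠ 1) :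
    ∃ y t : alternatingGroup (Fin 7), y * y * y = 1 ∧ y ≠ 1 ∧ t * t = 1 ∧ t ≠ 1 ∧ t ≠ w ∧
      y * w = w * y ∧ t * w = w * t ∧ y * t = t * y := by
  have hww : (w : Perm (Fin 7)) * w = 1 := congrArg Subtype.val hw
  have hww1 : (w : Perm (Fin 7)) ≠ 1 := fun h => hw1 (Subtype.ext h)
  have hws : sign (w : Perm (Fin 7)) = 1 := mem_alternatingGroup.1 w.2
  have h1 := cycleType_of_invol hww hww1 hws
  have h0 := cycleType_of_invol (w := w0) (by decide) (by decide) (by decide)
  have hc : IsConj w0 (w : Perm (Fin 7)) := isConj_iff_cycleType_eq.2 (h0.trans h1.symm)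
  obtain ⟨g, hg⟩ := isConj_iff.1 hc
  have key : ∀ a : Perm (Fin 7), sign a = 1 → g * a * g⁻¹ ∈ alternatingGroup (Fin 7) := by
    intro a ha
    rw [mem_alternatingGroup, map_mul, map_mul, ha, mul_one, map_inv, mul_inv_cancel]
  refine ⟨⟨g * y0 * g⁻¹, key y0 (by decide)⟩, ⟨g * t0 * g⁻¹, key t0 (by decide)⟩, ?_, ?_, ?_, ?_, ?_, ?_, ?_, ?_⟩
  · apply Subtype.ext
    show (g * y0 * g⁻¹) * (g * y0 * g⁻¹) * (g * y0 * g⁻¹) = 1
    have : y0 * y0 * y0 = 1 := by decide
    calc (g * y0 * g⁻¹) * (g * y0 * g⁻¹) * (g * y0 * g⁻¹) = g * (y0 * y0 * y0) * g⁻¹ := by group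
      _ = 1 := by rw [this]; group
  · intro h
    have h' : g * y0 * g⁻¹ = 1 := congrArg Subtype.val h
    have : y0 = 1 := by
      calc y0 = g⁻¹ * (g * y0 * g⁻¹) * g := by group
        _ = 1 := by rw [h']; group
    exact absurd this (by decide)
  · apply Subtype.ext
    show (g * t0 * g⁻¹) * (g * t0 * g⁻¹) = 1
    have : t0 * t0 = 1 := by decide
    calc (g * t0 * g⁻¹) * (g * t0 * g⁻¹) = g * (t0 * t0) * g⁻¹ := by group
      _ = 1 := by rw [this]; group
  · intro h
    have h' : g * t0 * g⁻¹ = 1 := congrArg Subtype.val h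
    have : t0 = 1 := by
      calc t0 = g⁻¹ * (g * t0 * g⁻¹) * g := by group
        _ = 1 := by rw [h']; group
    exact absurd this (by decide)
  · intro h
    have h' : g * t0 * g⁻¹ = w := congrArg Subtype.val h
    rw [← hg] at h'
    have : t0 = w0 := mul_left_cancel (mul_right_cancel h')
    exact absurd this (by decide)
  · apply Subtype.ext
    show (g * y0 * g⁻¹) * (w : Perm (Fin 7)) = w * (g * y0 * g⁻¹)
    rw [← hg]
    have : y0 * w0 = w0 * y0 := by decide
    calc (g * y0 * g⁻¹) * (g * w0 * g⁻¹) = g * (y0 * w0) * g⁻¹ := by group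
      _ = g * (w0 * y0) * g⁻¹ := by rw [this]
      _ = _ := by group
  · apply Subtype.ext
    show (g * t0 * g⁻¹) * (w : Perm (Fin 7)) = w * (g * t0 * g⁻¹)
    rw [← hg]
    have : t0 * w0 = w0 * t0 := by decide
    calc (g * t0 * g⁻¹) * (g * w0 * g⁻¹) = g * (t0 * w0) * g⁻¹ := by group
      _ = g * (w0 * t0) * g⁻¹ := by rw [this]
      _ = _ := by group
  · apply Subtype.ext
    show (g * y0 * g⁻¹) * (g * t0 * g⁻¹) = (g * t0 * g⁻¹) * (g * y0 * g⁻¹)
    have : y0 * t0 = t0 * y0 := by decide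
    calc (g * y0 * g⁻¹) * (g * t0 * g⁻¹) = g * (y0 * t0) * g⁻¹ := by group
      _ = g * (t0 * y0) * g⁻¹ := by rw [this]
      _ = _ := by group

end Cfsg.Agent.H398.Dih
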