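import Mathlib
import Cfsg.Agent.S0033
import Cfsg.Agent.H398.Dih.Basic

/-!
# Finite groups with a core-free maximal dihedral subgroup: reduction to almost simple groups
-/

set_option autoImplicit false

namespace Cfsg.Agent.H398.Dih

open Subgroup
open scoped Pointwise

variable {G : Type*} [Group G]

/-- conjugate of a subgroup -/
def cj (g : G) (T : Subgroup G) : Subgroup G := T.map (MulAut.conj g).toMonoidHom

theorem mem_cj {g x : G} {T : Subgroup G} : x ∈ cj g T ↔ g⁻¹ * x * g ∈ T := by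
  unfold cj
  rw [mem_map]
  constructor
  · rintro ⟨y, hy, rfl⟩
    have : g⁻¹ * (MulAut.conj g).toMonoidHom y * g = y := by
      simp [mul_assoc]
    rw [this]; exact hy
  · intro h
    exact ⟨_, h, by simp [mul_assoc]⟩

theorem conj_mem_cj {g x : G} {T : Subgroup G} (hx : x ∈ T) : g * x * g⁻¹ ∈ cj g T := by
  rw [mem_cj]
  have : g⁻¹ * (g * x * g⁻¹) * g = x := by group
  rw [this]; exact hx

theorem cj_cj (g k : G) (T : Subgroup G) : cj g (cj k T) = cj (g * k) T := by
  ext x
  rw [mem_cj, mem_cj, mem_cj]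
  have : k⁻¹ * (g⁻¹ * x * g) * k = (g * k)⁻¹ * x * (g * k) := by group
  rw [this]

theorem cj_one (T : Subgroup G) : cj 1 T = T := by
  ext x; rw [mem_cj]; simp

theorem cj_eq_of_mem_normalizer {g : G} {T : Subgroup G} (hg : g ∈ normalizer (T : Set G)) : cj g T = T := by
  ext x
  rw [mem_cj]
  have h1 := (mem_normalizer_iff.1 (inv_mem hg)) x
  rw [inv_inv] at h1
  exact h1.symm

theorem cj_mono {g : G} {S T : Subgroup G} (h : S ≤ T) : cj g S ≤ cj g T := by
  intro x hx
  rw [mem_cj] at hx ⊢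
  exact h hx

theorem cj_normal (g : G) (N : Subgroup G) [hN : N.Normal] : cj g N = N :=
  cj_eq_of_mem_normalizer (by rw [normalizer_eq_top]; exact mem_top g)

theorem cj_eq_bot {g : G} {T : Subgroup G} (h : cj g T = ⊥) : T = ⊥ := by
  rw [eq_bot_iff]
  intro x hx
  have h1 := conj_mem_cj (g := g) hx
  rw [h, mem_bot] at h1
  rw [mem_bot]
  calc x = g⁻¹ * (g * x * g⁻¹) * g := by group
    _ = 1 := by rw [h1]; group

theorem card_cj (g : G) (T : Subgroup G) : Nat.card (cj g T) = Nat.card T :=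
  (Nat.card_congr (T.equivMapOfInjective _ (MulAut.conj g).injective).toEquiv).symm

/-! ### minimal `N`-invariant subgroups of `N` -/

/-- `T` is a minimal nontrivial `N`-invariant subgroup of `N` -/
structure MinIn (N T : Subgroup G) : Prop where
  le : T ≤ N
  ne : T ≠ ⊥
  nor : N ≤ normalizer (T : Set G)
  min : ∀ X : Subgroup G, X ≤ T → X ≠ ⊥ → N ≤ normalizer (X : Set G) → X = T

theorem le_normalizer_cj {N T : Subgroup G} [N.Normal] (h : N ≤ normalizer (T : Set G)) (g : G) :
    N ≤ normalizer (cj g T : Set G) := by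
  rw [le_normalizer_iff] at h ⊢
  intro n hn x hx
  rw [mem_cj] at hx ⊢
  have h1 : g⁻¹ * n * g ∈ N := by
    have := (inferInstance : N.Normal).conj_mem n hn g⁻¹
    rwa [inv_inv] at this
  have h2 := h _ h1 _ hx
  have h3 : g⁻¹ * (n * x * n⁻¹) * g = g⁻¹ * n * g * (g⁻¹ * x * g) * (g⁻¹ * n * g)⁻¹ := by group
  rw [h3]; exact h2

theorem exists_minIn [Finite G] {N : Subgroup G} (hN : N ≠ ⊥) : ∃ T, MinIn N T := by
  have h1 : {T : Subgroup G | T ≤ N ∧ T ≠ ⊥ ∧ N ≤ normalizer (T : Set G)}.Nonempty :=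
    ⟨N, le_rfl, hN, Subgroup.le_normalizer⟩
  obtain ⟨T, hT⟩ := Set.Finite.exists_minimal (Set.toFinite _) h1
  refine ⟨T, hT.prop.1, hT.prop.2.1, hT.prop.2.2, fun X hX hX1 hX2 => ?_⟩
  exact le_antisymm hX (hT.le_of_le (y := X) ⟨hX.trans hT.prop.1, hX1, hX2⟩ hX)

namespace MinIn

variable {N T : Subgroup G} (h : MinIn N T)

include h

theorem cj [hN : N.Normal] (g : G) : MinIn N (cj g T) := by
  refine ⟨?_, fun h1 => h.ne (cj_eq_bot h1), le_normalizer_cj h.nor g, fun X hX hX1 hX2 => ?_⟩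
  · have := cj_mono (g := g) h.le
    rwa [cj_normal g N] at this
  · have h1 : Dih.cj g⁻¹ X ≤ T := by
      have := cj_mono (g := g⁻¹) hX
      rwa [cj_cj, inv_mul_cancel, cj_one] at this
    have h2 := h.min _ h1 (fun h3 => hX1 (cj_eq_bot h3)) (le_normalizer_cj hX2 g⁻¹)
    rw [← h2, cj_cj, mul_inv_cancel, cj_one]

theorem inf_eq_bot {T' : Subgroup G} (h' : MinIn N T') (hne : T ≠ T') : T ⊓ T' = ⊥ := by
  by_contra hcon
  have h1 : N ≤ normalizer ((T ⊓ T' : Subgroup G) : Set G) := by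
    rw [le_normalizer_iff]
    intro n hn x hx
    exact ⟨(le_normalizer_iff.1 h.nor) n hn x hx.1, (le_normalizer_iff.1 h'.nor) n hn x hx.2⟩
  exact hne ((h.min _ inf_le_left hcon h1).symm.trans (h'.min _ inf_le_right hcon h1))

/-- distinct minimal subgroups commute -/
theorem commute {T' : Subgroup G} (h' : MinIn N T') (hne : T ≠ T') :
    ∀ a ∈ T, ∀ b ∈ T', a * b = b * a := by
  have hinf : T ⊓ T' = ⊥ := h.inf_eq_bot h' hne
  intro a ha b hb
  have h1 : a * b * a⁻¹ * b⁻¹ ∈ T ⊓ T' := by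
    refine mem_inf.2 ⟨?_, ?_⟩
    · have h2 := (le_normalizer_iff.1 h.nor) b (h'.le hb) a⁻¹ (inv_mem ha)
      have h3 : a * b * a⁻¹ * b⁻¹ = a * (b * a⁻¹ * b⁻¹) := by group
      rw [h3]; exact mul_mem ha h2
    · have h2 := (le_normalizer_iff.1 h'.nor) a (h.le ha) b hb
      exact mul_mem h2 (inv_mem hb)
  rw [hinf, mem_bot] at h1
  calc a * b = (a * b * a⁻¹ * b⁻¹) * b * a := by group
    _ = b * a := by rw [h1]; group

end MinIn

/-! ### the maximal subgroup -/

/-- `H` is a maximal subgroup with trivial core, and dihedral. -/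
structure Max (H C : Subgroup G) : Prop where
  dih : IsDih H C
  max : IsCoatom H
  core : ∀ N : Subgroup G, N.Normal → N ≤ H → N = ⊥

namespace Max

variable {H C : Subgroup G} (h : Max H C)

include h

theorem normalizer_eq {X : Subgroup G} (hX : X ≤ H) (hX1 : X ≠ ⊥) (hn : H ≤ normalizer (X : Set G)) :
    normalizer (X : Set G) = H := by
  by_contra hcon
  have h1 : normalizer (X : Set G) = ⊤ := h.max.2 _ (lt_of_le_of_ne hn (Ne.symm hcon))
  exact hX1 (h.core X (normalizer_eq_top_iff.1 h1) hX)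

theorem sup_eq_top {N : Subgroup G} [hN : N.Normal] (hN1 : N ≠ ⊥) : H ⊔ N = ⊤ := by
  apply h.max.2
  apply lt_of_le_of_ne le_sup_left
  intro h1
  exact hN1 (h.core N hN (by rw [h1]; exact le_sup_right))

theorem exists_mul {N : Subgroup G} [hN : N.Normal] (hN1 : N ≠ ⊥) (g : G) :
    ∃ x ∈ H, ∃ n ∈ N, x * n = g := by
  have h1 : g ∈ ((H ⊔ N : Subgroup G) : Set G) := by
    rw [h.sup_eq_top hN1]; exact mem_top g
  rw [mul_normal] at h1
  obtain ⟨x, hx, n, hn, h2⟩ := h1
  exact ⟨x, hx, n, hn, h2⟩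

/-- `H ⊓ N ≠ ⊥` unless `N` is nilpotent -/
theorem inf_ne_bot [Finite G] {N : Subgroup G} [hN : N.Normal] (hnil : ¬ Group.IsNilpotent N) :
    H ⊓ N ≠ ⊥ := by
  intro hbot
  apply hnil
  have hC := h.dih.finite
  obtain ⟨p, hp, hpC⟩ := Nat.exists_prime_and_dvd (n := Nat.card C) (by have := h.dih.three; omega)
  have hpf := Fact.mk hp
  obtain ⟨⟨a, haC⟩, ha⟩ := exists_prime_orderOf_dvd_card' p hpC
  rw [Subgroup.orderOf_mk] at ha
  have ha1 : a ≠ 1 := by
    rintro rfl
    rw [orderOf_one] at ha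
    exact hp.one_lt.ne ha
  have hnor : normalizer (zpowers a : Set G) = H := by
    have h0 : zpowers a ≤ C := by rw [zpowers_le]; exact haC
    exact h.normalizer_eq (h0.trans h.dih.le) (by rwa [Ne, zpowers_eq_bot]) (h.dih.le_normalizer h0)
  have hfpf : ∀ y ∈ N, a * y * a⁻¹ = y → y = 1 := by
    intro y hy hay
    have h1 : y * a = a * y := by
      calc y * a = (a * y * a⁻¹) * a := by rw [hay]
        _ = a * y := by group
    have h2 : y ∈ H := by
      rw [← hnor]
      have h3 : y ∈ centralizer (zpowers a : Set G) := by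
        rw [mem_centralizer_iff]
        rintro _ ⟨k, rfl⟩
        exact ((show Commute a y from h1.symm).zpow_left k).eq
      exact centralizer_le_normalizer _ h3
    have h3 : y ∈ H ⊓ N := ⟨h2, hy⟩
    rw [hbot, mem_bot] at h3
    exact h3
  set φ : MulAut N := MulAut.conjNormal a with hφ
  have hφp : φ ^ p = 1 := by
    rw [hφ, ← map_pow, ← ha, pow_orderOf_eq_one, map_one]
  have hF : ∀ y : N, φ y = y → y = 1 := by
    intro y hy
    apply Subtype.ext
    apply hfpf y y.2
    have := congrArg Subtype.val hy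
    rwa [hφ, MulAut.conjNormal_apply] at this
  by_cases h1 : φ = 1
  · have : Subsingleton N := by
      constructor
      intro x y
      rw [hF x (by rw [h1]; rfl), hF y (by rw [h1]; rfl)]
    infer_instance
  · have ho : orderOf φ = p := orderOf_eq_prime hφp h1
    exact Cfsg.Agent.S0033.result φ (fun y hy => hF y hy) p hp ho

end Max

end Cfsg.Agent.H398.Dih
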